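import Groth.Agent.Pi1C.FormR
import Groth.Agent.Pi1C.FormO
import Groth.Agent.Pi1C.FormFin

/-!
# Graded formal systems

`A` a graded ring, `f`, `g i` of degree `1`. `Sys f g cA π α cC cM`: a graded `FormSys.ModSys` system `M n`
over `A` with, for every `n`, a graded module `C n` which is locally `A / f^(n+1)` and such that `M n` is
locally a direct summand of a finite power of `C n`. Gradings are given by their component projections
`c a : N →+ N`, `a : ℤ`.
-/

set_option autoImplicit false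
universe u

namespace Groth.Agent.Sga2lef.H103.GrSys

open Groth.Agent.Pi1C Groth.Agent.FormalA.CechSub Groth.Agent.FormalA.CechLC
open FormLim FormSys FormCech FormKill

/-- Component projections of an abelian group graded by `ℤ`. -/
structure Gr {N : Type*} [AddCommGroup N] (c : ℤ → N →+ N) : Prop where
  self : ∀ a z, c a (c a z) = c a z
  ne : ∀ a b z, a ≠ b → c a (c b z) = 0
  fin : ∀ z, ∃ s : Finset ℤ, ∑ a ∈ s, c a z = z

/-- Component projections of a graded module. -/
structure GrMod {A : Type*} [CommRing A] (cA : ℤ → A →+ A) {N : Type*} [AddCommGroup N] [Module A N]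
    (c : ℤ → N →+ N) : Prop extends Gr c where
  smul : ∀ a b (t : A) (z : N), cA a t = t → c b z = z → c (a + b) (t • z) = t • z

/-- Component projections of a ring graded by `ℕ`, the `g i` of degree `1`. -/
structure GrRing {A : Type*} [CommRing A] {ι : Type*} (g : ι → A) (cA : ℤ → A →+ A) : Prop
    extends GrMod cA cA where
  neg : ∀ a z, a < 0 → cA a z = 0
  one : cA 0 1 = 1
  deg : ∀ i, cA 1 (g i) = g i

/-- A graded formal system, locally projective. -/
structure Sys {A : Type*} [CommRing A] {ι : Type*} (f : A) (g : ι → A) (cA : ℤ → A →+ A)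
    {C M : ℕ → Type*} [∀ n, AddCommGroup (C n)] [∀ n, Module A (C n)]
    [∀ n, AddCommGroup (M n)] [∀ n, Module A (M n)]
    (π : ∀ n, M (n + 1) →ₗ[A] M n) (α : ∀ n, A →ₗ[A] C n)
    (cC : ∀ n, ℤ → C n →+ C n) (cM : ∀ n, ℤ → M n →+ M n) : Prop where
  sysM : ModSys f g M π
  grM : ∀ n, GrMod cA (cM n)
  πcM : ∀ n a z, π n (cM (n + 1) a z) = cM n a (π n z)
  grC : ∀ n, GrMod cA (cC n)
  αc : ∀ n e a, α n (cA e a) = cC n e (α n a)
  surjα : ∀ n, LS g (α n)
  kerα : ∀ n, LK g (α n) (f ^ (n + 1))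
  torsC : ∀ n (x : C n), f ^ (n + 1) • x = 0
  closedC : ∀ n, Closed g (C n)
  facM : ∀ n i, ∃ (r k : ℕ) (Φ : Fin r → M n →ₗ[A] C n) (Ψ : Fin r → C n →ₗ[A] M n) (δ : Fin r → ℤ),
    (∀ j a x, cM n a x = x → cC n (a + δ j) (Φ j x) = Φ j x) ∧
    ∀ x, g i ^ k • x = ∑ j, Ψ j (Φ j x)

section basic

variable {N : Type*} [AddCommGroup N] {c : ℤ → N →+ N}

theorem Gr.of_ne (h : Gr c) {a b : ℤ} {z : N} (hz : c b z = z) (hab : a ≠ b) : c a z = 0 := by
  rw [← hz, h.ne a b z hab]

theorem Gr.exists_sum (h : Gr c) (z : N) :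
    ∃ s : Finset ℤ, (∀ a, a ∉ s → c a z = 0) ∧ ∑ a ∈ s, c a z = z := by
  obtain ⟨s, hs⟩ := h.fin z
  refine ⟨s, fun a ha => ?_, hs⟩
  rw [← hs, map_sum]
  refine Finset.sum_eq_zero fun b hb => h.ne a b z ?_
  rintro rfl
  exact ha hb

theorem Gr.eq_zero (h : Gr c) {z : N} (hz : ∀ a, c a z = 0) : z = 0 := by
  obtain ⟨s, hs⟩ := h.fin z
  rw [← hs]
  exact Finset.sum_eq_zero fun a _ => hz a

theorem Gr.ext (h : Gr c) {z w : N} (hz : ∀ a, c a z = c a w) : z = w := by
  rw [← sub_eq_zero]
  refine h.eq_zero fun a => ?_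
  rw [map_sub, hz, sub_self]

variable {A : Type*} [CommRing A] {cA : ℤ → A →+ A} [Module A N]

/-- Components of `t • z`, `t` homogeneous. -/
theorem GrMod.comp_smul (h : GrMod cA c) {a : ℤ} {t : A} (ht : cA a t = t) (b : ℤ) (z : N) :
    c b (t • z) = t • c (b - a) z := by
  obtain ⟨s, hs⟩ := h.fin z
  have h1 : ∀ e ∈ s, c b (t • c e z) = t • c (b - a) (c e z) := by
    intro e _
    by_cases he : e = b - a
    · subst he
      rw [h.self]
      have := h.smul a (b - a) t _ ht (h.self (b - a) z)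
      rwa [add_sub_cancel] at this
    · rw [h.ne _ _ z (Ne.symm he), smul_zero]
      refine h.of_ne (h.smul a e t _ ht (h.self e z)) ?_
      omega
  conv_lhs => rw [← hs, Finset.smul_sum, map_sum, Finset.sum_congr rfl h1, ← Finset.smul_sum,
    ← map_sum, hs]

/-- Components of `t • z`, `z` homogeneous. -/
theorem GrMod.comp_smul_right (h : GrMod cA c) (hA : Gr cA) {e : ℤ} {z : N} (hz : c e z = z) (b : ℤ)
    (t : A) : c b (t • z) = cA (b - e) t • z := by
  obtain ⟨s, hs⟩ := hA.fin t
  have h1 : ∀ a ∈ s, c b (cA a t • z) = cA (b - e) (cA a t) • z := by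
    intro a _
    by_cases ha : a = b - e
    · subst ha
      rw [hA.self]
      have := h.smul (b - e) e _ z (hA.self (b - e) t) hz
      rwa [sub_add_cancel] at this
    · rw [hA.ne _ _ t (Ne.symm ha), zero_smul]
      refine h.of_ne (h.smul a e _ z (hA.self a t) hz) ?_
      omega
  conv_lhs => rw [← hs, Finset.sum_smul, map_sum, Finset.sum_congr rfl h1, ← Finset.sum_smul,
    ← map_sum, hs]

variable {ι : Type*} {g : ι → A}

theorem GrRing.mul (h : GrRing g cA) {a b : ℤ} {s t : A} (hs : cA a s = s) (ht : cA b t = t) :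
    cA (a + b) (s * t) = s * t := h.smul a b s t hs ht

theorem GrRing.pow (h : GrRing g cA) (i : ι) (k : ℕ) : cA k (g i ^ k) = g i ^ k := by
  induction k with
  | zero =>
    rw [pow_zero]
    exact h.one
  | succ k ih =>
    rw [pow_succ, Nat.cast_succ]
    exact h.mul ih (h.deg i)

end basic

end Groth.Agent.Sga2lef.H103.GrSys
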