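import Groth.Agent.Sga2lef.H103.GrNoeth

/-!
# Presentation of a graded formal system
-/

set_option autoImplicit false
universe u

namespace Groth.Agent.Sga2lef.H103.GrSys

open Groth.Agent.Pi1C Groth.Agent.FormalA.CechSub Groth.Agent.FormalA.CechLC
open FormLim FormSys FormCech FormKill FormO

/-- A presentation of a graded formal system: generators `b j` of degree `d j ≥ 0` in the limit and
relations `K l` of degree `e l`, exact on every `D(g i)` at every level. -/
structure Pres {A : Type*} [CommRing A] {ι : Type*} (f : A) (g : ι → A) (cA : ℤ → A →+ A)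
    {M : ℕ → Type*} [∀ n, AddCommGroup (M n)] [∀ n, Module A (M n)]
    (π : ∀ n, M (n + 1) →ₗ[A] M n) (cM : ∀ n, ℤ → M n →+ M n) where
  /-- the number of generators -/
  q : ℕ
  /-- their degrees -/
  d : Fin q → ℕ
  /-- the generators -/
  b : Fin q → ∀ n, M n
  b_compat : ∀ j n, π n (b j (n + 1)) = b j n
  b_hom : ∀ j n, cM n (d j) (b j n) = b j n
  /-- the number of relations -/
  r : ℕ
  /-- their degrees -/
  e : Fin r → ℕ
  /-- the relations -/
  K : Fin r → Fin q → A
  K_hom : ∀ l j, cA ((e l : ℤ) - d j) (K l j) = K l j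
  d_le : ∀ l j, d j ≤ e l
  rel : ∀ l n, ∑ j, K l j • b j n = 0
  surj : ∀ n i (a : ℤ) (x : M n), cM n a x = x → ∃ (k : ℕ) (v : Fin q → A),
    (∀ j, cA (k + a - d j) (v j) = v j) ∧ g i ^ k • x = ∑ j, v j • b j n
  ker : ∀ n i (a : ℤ) (v : Fin q → A), (∀ j, cA (a - d j) (v j) = v j) → ∑ j, v j • b j n = 0 →
    ∃ (k : ℕ) (w : Fin q → A) (c : Fin r → A), (∀ j, cA (k + a - (n + 1) - d j) (w j) = w j) ∧
      (∀ l, cA (k + a - e l) (c l) = c l) ∧
      ∀ j, g i ^ k * v j = f ^ (n + 1) * w j + ∑ l, c l * K l j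

theorem exists_fin_gen {A : Type*} [CommRing A] {N : Type*} [AddCommGroup N] [Module A N] (W : Set N)
    (h : (Submodule.span A W).FG) : ∃ (q : ℕ) (b : Fin q → N), (∀ j, b j ∈ W) ∧
      Submodule.span A (Set.range b) = Submodule.span A W := by
  classical
  obtain ⟨T, hT, hs⟩ := (Submodule.fg_span_iff_fg_span_finset_subset W).1 h
  let e := T.equivFin
  refine ⟨T.card, fun j => (e.symm j).1, fun j => hT (e.symm j).2, ?_⟩
  rw [hs]
  congr 1
  ext x
  constructor
  · rintro ⟨j, rfl⟩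
    exact (e.symm j).2
  · intro hx
    exact ⟨e ⟨x, hx⟩, by simp⟩

section sys

variable {A : Type u} [CommRing A] {ι : Type*} {f : A} {g : ι → A} {cA : ℤ → A →+ A}
  {C M : ℕ → Type u} [∀ n, AddCommGroup (C n)] [∀ n, Module A (C n)]
  [∀ n, AddCommGroup (M n)] [∀ n, Module A (M n)]
  {π : ∀ n, M (n + 1) →ₗ[A] M n} {α : ∀ n, A →ₗ[A] C n}
  {cC : ∀ n, ℤ → C n →+ C n} {cM : ∀ n, ℤ → M n →+ M n}

/-- Make the coefficients homogeneous. -/
theorem exists_hom_coeff (hA : GrRing g cA) (hM : ∀ n, GrMod cA (cM n))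
    (hπ : ∀ n a z, π n (cM (n + 1) a z) = cM n a (π n z)) {q : ℕ} (d : Fin q → ℤ)
    (b : Fin q → Lim π) (hb : ∀ j, IsHom cM (d j) (b j)) {a : ℤ} {x : Lim π} (hx : IsHom cM a x)
    (hxs : x ∈ Submodule.span A (Set.range b)) :
    ∃ t : Fin q → A, (∀ j, cA (a - d j) (t j) = t j) ∧ x = ∑ j, t j • b j := by
  obtain ⟨t, ht⟩ := (Submodule.mem_span_range_iff_exists_fun A).1 hxs
  refine ⟨fun j => cA (a - d j) (t j), fun j => hA.self _ _, ?_⟩
  rw [← comp_eq hπ hx, ← ht, map_sum]
  exact Finset.sum_congr rfl fun j _ => comp_smul_right hM hπ hA.toGr (hb j) a (t j)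

/-- Homogeneous generators of the limit (graded Nakayama). -/
theorem Sys.exists_gen [Finite ι] [IsNoetherianRing A] (m : Ideal A) [hm : m.IsMaximal]
    (hg : m.radical = (Ideal.span (Set.range g)).radical) (hreg : ∀ a : A, f * a = 0 → a = 0)
    (hA : GrRing g cA) (hf : cA 1 f = f) (hm0 : ∀ t ∈ m, cA 0 t = 0)
    (n0 : ℕ) (hk0 : Kills0 g (f ^ n0) A) (hk1 : Kills1 g (f ^ n0) A)
    (S : Sys f g cA π α cC cM) :
    ∃ (q : ℕ) (d : Fin q → ℤ) (b : Fin q → Lim π), (∀ j, IsHom cM (d j) (b j)) ∧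
      ∀ a (x : Lim π), IsHom cM a x → x ∈ Submodule.span A (Set.range b) := by
  obtain ⟨a0, ha0⟩ := S.exists_zero hreg hA hf n0 hk0 hk1
  obtain ⟨N, hN, hNl⟩ := S.exists_fg 0
  have hnoeth := isNoetherian_ge hA (S.grM 0) m hg hm0 (S.sysM.closed 0) N hN hNl a0
  let W : Set (M 0) := {y | ∃ a, ∃ x : Lim π, IsHom cM a x ∧ y = x.1 0}
  have hW : Submodule.span A W ≤ ge hA (S.grM 0) a0 := by
    rw [Submodule.span_le]
    rintro _ ⟨a, x, hx, rfl⟩
    rcases lt_or_ge a a0 with h | h
    · rw [ha0 a h x hx]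
      exact Submodule.zero_mem _
    · exact mem_ge_of_hom hA (S.grM 0) h (hx 0)
  have hWfg : (Submodule.span A W).FG := by
    have h1 : ((Submodule.span A W).comap (ge hA (S.grM 0) a0).subtype).FG := hnoeth.noetherian _
    have h2 := h1.map (ge hA (S.grM 0) a0).subtype
    rwa [Submodule.map_comap_subtype, inf_eq_right.2 hW] at h2
  obtain ⟨q, y, hyW, hy⟩ := exists_fin_gen W hWfg
  choose d b hb hyb using hyW
  refine ⟨q, d, b, hb, ?_⟩
  have key : ∀ n : ℕ, ∀ a : ℤ, a < a0 + n → ∀ x : Lim π, IsHom cM a x →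
      x ∈ Submodule.span A (Set.range b) := by
    intro n
    induction n with
    | zero =>
      intro a ha x hx
      rw [ha0 a (by simpa using ha) x hx]
      exact Submodule.zero_mem _
    | succ n ih =>
      intro a ha x hx
      have h1 : x.1 0 ∈ Submodule.span A (Set.range y) := by
        rw [hy]
        exact Submodule.subset_span ⟨a, x, hx, rfl⟩
      obtain ⟨t, ht⟩ := (Submodule.mem_span_range_iff_exists_fun A).1 h1
      have h2 : proj π 0 (x - comp S.πcM a (∑ j, t j • b j)) = 0 := by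
        rw [map_sub, proj_apply, proj_apply, comp_val, sub_eq_zero]
        have h3 : (∑ j, t j • b j : Lim π).1 0 = x.1 0 := by
          rw [← ht]
          change proj π 0 (∑ j, t j • b j) = _
          rw [map_sum]
          exact Finset.sum_congr rfl fun j _ => by rw [map_smul, hyb]; rfl
        rw [h3]
        exact (hx 0).symm
      obtain ⟨w, hw⟩ := exists_of_proj_eq_zero S.sysM 0 _ h2
      rw [zero_add, pow_one] at hw
      have h4 : x = comp S.πcM a (∑ j, t j • b j) + f • comp S.πcM (a - 1) w := by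
        rw [← comp_smul S.grM S.πcM hf, ← hw, map_sub,
          comp_eq S.πcM hx, comp_eq S.πcM (isHom_comp S.grM S.πcM a _)]
        abel
      rw [h4]
      refine Submodule.add_mem _ ?_ (Submodule.smul_mem _ _ (ih (a - 1) (by push_cast at ha; omega) _
        (isHom_comp S.grM S.πcM _ _)))
      rw [map_sum]
      refine Submodule.sum_mem _ fun j _ => ?_
      rw [comp_smul_right S.grM S.πcM hA.toGr (hb j)]
      exact Submodule.smul_mem _ _ (Submodule.subset_span ⟨j, rfl⟩)
  intro a x hx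
  exact key (a - a0 + 1).toNat a (by omega) x hx

/-- Homogeneous generators of degree `≥ 0`. -/
theorem exists_gen_nonneg [IsNoetherianRing A] {q : ℕ} (b : Fin q → Lim π)
    (hs : ∀ a (x : Lim π), IsHom cM a x → x ∈ Submodule.span A (Set.range b)) :
    ∃ (q : ℕ) (d : Fin q → ℕ) (b : Fin q → Lim π), (∀ j, IsHom cM (d j) (b j)) ∧
      ∀ (a : ℕ) (x : Lim π), IsHom cM a x → x ∈ Submodule.span A (Set.range b) := by
  let W : Set (Lim π) := {x | ∃ a : ℕ, IsHom cM a x}
  have hW : Submodule.span A W ≤ Submodule.span A (Set.range b) := by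
    rw [Submodule.span_le]
    rintro x ⟨a, hx⟩
    exact hs a x hx
  have hfg : (Submodule.span A (Set.range b)).FG := Submodule.fg_span (Set.finite_range b)
  have hnoeth : IsNoetherian A (Submodule.span A (Set.range b)) :=
    isNoetherian_of_fg_of_noetherian _ hfg
  have hWfg : (Submodule.span A W).FG := by
    have h1 : ((Submodule.span A W).comap (Submodule.span A (Set.range b)).subtype).FG :=
      hnoeth.noetherian _
    have h2 := h1.map (Submodule.span A (Set.range b)).subtype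
    rwa [Submodule.map_comap_subtype, inf_eq_right.2 hW] at h2
  obtain ⟨q', b', hb', hspan⟩ := exists_fin_gen W hWfg
  choose d hd using hb'
  refine ⟨q', d, b', hd, fun a x hx => ?_⟩
  rw [hspan]
  exact Submodule.subset_span ⟨a, hx⟩

/-- Homogeneous relations of large degree. -/
theorem exists_rel [IsNoetherianRing A] (hA : GrRing g cA) {q : ℕ} (d : Fin q → ℕ)
    (b : Fin q → Lim π) (D : ℕ) (hD : ∀ j, d j ≤ D) :
    ∃ (r : ℕ) (e : Fin r → ℕ) (K : Fin r → Fin q → A),
      (∀ l j, cA ((e l : ℤ) - d j) (K l j) = K l j) ∧ (∀ l j, d j ≤ e l) ∧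
      (∀ l, ∑ j, K l j • b j = 0) ∧
      ∀ (a : ℤ) (v : Fin q → A), (D : ℤ) ≤ a → (∀ j, cA (a - d j) (v j) = v j) →
        ∑ j, v j • b j = 0 →
        ∃ c : Fin r → A, (∀ l, cA (a - e l) (c l) = c l) ∧ ∀ j, v j = ∑ l, c l * K l j := by
  let W : Set (Fin q → A) := {v | ∃ a : ℕ, D ≤ a ∧ (∀ j, cA ((a : ℤ) - d j) (v j) = v j) ∧
    ∑ j, v j • b j = 0}
  obtain ⟨r, K, hK, hspan⟩ := exists_fin_gen (A := A) W (IsNoetherian.noetherian _)
  choose e he hK1 hK2 using hK
  refine ⟨r, e, K, hK1, fun l j => (hD j).trans (he l), hK2, fun a v ha hv hv0 => ?_⟩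
  have h1 : v ∈ Submodule.span A (Set.range K) := by
    rw [hspan]
    refine Submodule.subset_span ⟨a.toNat, by omega, fun j => ?_, hv0⟩
    rw [Int.toNat_of_nonneg (by omega)]
    exact hv j
  obtain ⟨c, hc⟩ := (Submodule.mem_span_range_iff_exists_fun A).1 h1
  refine ⟨fun l => cA (a - e l) (c l), fun l => hA.self _ _, fun j => ?_⟩
  rw [← hv j, ← hc, Finset.sum_apply, map_sum]
  refine Finset.sum_congr rfl fun l _ => ?_
  have h2 := hA.toGrMod.comp_smul_right hA.toGr (hK1 l j) (a - d j) (c l)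
  rw [smul_eq_mul, smul_eq_mul] at h2
  rw [Pi.smul_apply, smul_eq_mul, h2, show a - (d j : ℤ) - ((e l : ℤ) - d j) = a - e l by ring]

/-- **Presentation of a graded formal system.** -/
theorem Sys.exists_pres [Finite ι] [IsNoetherianRing A] (m : Ideal A) [hm : m.IsMaximal]
    (hg : m.radical = (Ideal.span (Set.range g)).radical) (hreg : ∀ a : A, f * a = 0 → a = 0)
    (hA : GrRing g cA) (hf : cA 1 f = f) (hm0 : ∀ t ∈ m, cA 0 t = 0)
    (n0 : ℕ) (hk0 : Kills0 g (f ^ n0) A) (hk1 : Kills1 g (f ^ n0) A) (hk2 : Kills2 g (f ^ n0) A)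
    (S : Sys f g cA π α cC cM) : Nonempty (Pres f g cA π cM) := by
  obtain ⟨q1, -, b1, -, hspan1⟩ := S.exists_gen m hg hreg hA hf hm0 n0 hk0 hk1
  obtain ⟨q, d, b, hb, hspan⟩ := exists_gen_nonneg (cM := cM) b1 hspan1
  obtain ⟨D, hD⟩ : ∃ D : ℕ, ∀ j, d j ≤ D :=
    ⟨∑ j, d j, fun j => Finset.single_le_sum (fun _ _ => Nat.zero_le _) (Finset.mem_univ j)⟩
  obtain ⟨r, e, K, hK1, hK2, hK3, hK4⟩ := exists_rel (π := π) hA d b D hD
  have hfp : ∀ k : ℕ, cA k (f ^ k) = f ^ k := by
    intro k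
    induction k with
    | zero => rw [pow_zero]; exact hA.one
    | succ k ih => rw [pow_succ, Nat.cast_succ]; exact hA.mul ih hf
  have hval : ∀ (v : Fin q → A) (n : ℕ), (∑ j, v j • b j : Lim π).1 n = ∑ j, v j • (b j).1 n := by
    intro v n
    change proj π n (∑ j, v j • b j) = _
    rw [map_sum]
    rfl
  have hcoeff : ∀ (a : ℤ) (x : Lim π), 0 ≤ a → IsHom cM a x →
      ∃ t : Fin q → A, (∀ j, cA (a - d j) (t j) = t j) ∧ x = ∑ j, t j • b j := by
    intro a x ha hx
    obtain ⟨n, rfl⟩ := Int.eq_ofNat_of_zero_le ha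
    exact exists_hom_coeff hA S.grM S.πcM (fun j => (d j : ℤ)) b hb hx (hspan n x hx)
  refine ⟨
    { q := q
      d := d
      b := fun j n => (b j).1 n
      b_compat := fun j n => (b j).2 n
      b_hom := fun j n => hb j n
      r := r
      e := e
      K := K
      K_hom := hK1
      d_le := hK2
      rel := fun l n => by rw [← hval, hK3]; rfl
      surj := fun n i a x hx => ?_
      ker := fun n i a v hv hv0 => ?_ }⟩
  · obtain ⟨k, y, hy⟩ := S.exists_lift m hg hreg n0 hk1 hk2 n i x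
    -- the component of degree `k + a`
    let y' : Lim π := comp S.πcM (k + a) y
    have hy' : y'.1 n = g i ^ k • x := by
      rw [comp_val, hy, (S.grM n).comp_smul (hA.pow i k), add_sub_cancel_left, hx]
    let l : ℕ := (-(k + a)).toNat
    have hy2 : IsHom cM (l + (k + a)) (g i ^ l • y') :=
      (isHom_comp S.grM S.πcM (k + a) y).smul S.grM (hA.pow i l)
    obtain ⟨t, ht, hty⟩ := hcoeff _ _ (by omega) hy2
    refine ⟨l + k, t, fun j => ?_, ?_⟩
    · rw [show ((l + k : ℕ) : ℤ) + a - d j = l + (k + a) - d j by push_cast; ring]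
      exact ht j
    · rw [← hval, ← hty, pow_add, mul_smul, ← hy']
      rfl
  · let x : Lim π := ∑ j, v j • b j
    have hx : IsHom cM a x := IsHom.sum _ _ fun j _ => by
      have := (hb j).smul S.grM (hv j)
      rwa [sub_add_cancel] at this
    have hx0 : proj π n x = 0 := by
      rw [proj_apply, hval]
      exact hv0
    obtain ⟨y, hy⟩ := exists_of_proj_eq_zero S.sysM n x hx0
    let y' : Lim π := comp S.πcM (a - (n + 1 : ℕ)) y
    have hy' : x = f ^ (n + 1) • y' := by
      rw [← comp_smul S.grM S.πcM (hfp (n + 1)), ← hy, comp_eq S.πcM hx]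
    let k : ℕ := (-(a - (n + 1 : ℕ))).toNat + (D - a).toNat
    have hy2 : IsHom cM (k + (a - (n + 1 : ℕ))) (g i ^ k • y') :=
      (isHom_comp S.grM S.πcM _ y).smul S.grM (hA.pow i k)
    obtain ⟨w, hw, hwy⟩ := hcoeff _ _ (by omega) hy2
    -- the relation
    have h1 : ∑ j, (g i ^ k * v j - f ^ (n + 1) * w j) • b j = 0 := by
      have h3 : ∀ j, (g i ^ k * v j - f ^ (n + 1) * w j) • b j =
          g i ^ k • v j • b j - f ^ (n + 1) • w j • b j := fun j => by
        refine (sub_smul (g i ^ k * v j) (f ^ (n + 1) * w j) (b j)).trans ?_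
        rw [mul_smul, mul_smul]
      rw [Finset.sum_congr rfl fun j _ => h3 j, Finset.sum_sub_distrib, ← Finset.smul_sum,
        ← Finset.smul_sum]
      change g i ^ k • x - f ^ (n + 1) • ∑ j, w j • b j = 0
      rw [← hwy, hy', smul_comm, sub_self]
    have h2 : ∀ j, cA (k + a - d j) (g i ^ k * v j - f ^ (n + 1) * w j) =
        g i ^ k * v j - f ^ (n + 1) * w j := by
      intro j
      rw [map_sub]
      congr 1
      · rw [show (k : ℤ) + a - d j = k + (a - d j) by ring]
        exact hA.mul (hA.pow i k) (hv j)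
      · rw [show (k : ℤ) + a - d j = ((n + 1 : ℕ) : ℤ) + (k + (a - (n + 1 : ℕ)) - d j) by ring]
        exact hA.mul (hfp (n + 1)) (hw j)
    obtain ⟨c, hc1, hc2⟩ := hK4 (k + a) _ (by omega) h2 h1
    refine ⟨k, w, c, fun j => ?_, hc1, fun j => ?_⟩
    · rw [show (k : ℤ) + a - (n + 1) - d j = k + (a - (n + 1 : ℕ)) - d j by push_cast; ring]
      exact hw j
    · rw [← hc2 j]
      ring

end sys

end Groth.Agent.Sga2lef.H103.GrSys
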