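import Groth.Agent.Sga2lef.H151.TwSys
import Groth.Agent.Sga2lef.H78.DualBasis
import Groth.Agent.Pi1C.LefSetup

/-!
# The local systems of a `KCalc.Sys`
-/

set_option autoImplicit false
universe u
open AlgebraicGeometry CategoryTheory
open Groth.Agent.VarietyB.ProjGlue

namespace Groth.Agent.Sga2lef.H103.LocSysOf

open Groth.Agent.Pi1C LefSetup
open Groth.Agent.Sga2lef.H78 KCalc
open Groth.Agent.FormalB.KQuot Groth.Agent.FormalB.TrKQuot

variable {X : Scheme.{u}} {I : Type} [Finite I] (D : CoordData X I) (hU : ∀ i, IsAffineOpen (D.U i))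
  [∀ i, QuasiCompact (D.U i).ι] (k : I)

theorem mem_hyper_pow (n : ℕ) (i : I) : D.f i k ^ n ∈ (hyper D hU k ^ n).ideal ⟨D.U i, hU i⟩ := by
  rw [hyper_pow_ideal]
  exact Ideal.mem_span_singleton_self _

theorem exists_of_mem_smul {R N : Type*} [CommRing R] [AddCommGroup N] [Module R N] (a : R) (s : N)
    (h : s ∈ Ideal.span {a} • (⊤ : Submodule R N)) : ∃ t : N, s = a • t := by
  rw [Submodule.ideal_span_singleton_smul] at h
  obtain ⟨t, -, ht⟩ := Submodule.mem_smul_pointwise_iff_exists _ _ _ |>.1 h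
  exact ⟨t, ht.symm⟩

variable {D hU k}

theorem tors (S : Sys (hyper D hU k)) (n : ℕ) (i : I) (e : Γ(S.G n, D.U i)) :
    D.f i k ^ (n + 1) • e = 0 :=
  S.killed n ⟨D.U i, hU i⟩ _ (mem_hyper_pow D hU k (n + 1) i) e

theorem surj (S : Sys (hyper D hU k)) (n : ℕ) (i : I) :
    Function.Surjective ((S.t n).app (D.U i)) :=
  IsKQuot.app_surjective (S.kq n) (S.qc (n + 1)) (hU i)

theorem ker (S : Sys (hyper D hU k)) (n : ℕ) (i : I) (e : Γ(S.G (n + 1), D.U i))
    (he : (S.t n).app (D.U i) e = 0) : ∃ e', e = D.f i k ^ (n + 1) • e' := by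
  have h := (IsKQuot.app_eq_zero_iff (S.kq n) (S.qc (n + 1)) ⟨D.U i, hU i⟩ e).1 he
  rw [hyper_pow_ideal] at h
  exact exists_of_mem_smul _ _ h

theorem ftors (S : Sys (hyper D hU k)) (hreg : ∀ i, D.f i k ∈ nonZeroDivisors Γ(X, D.U i)) (n : ℕ)
    (i : I) (e : Γ(S.G n, D.U i)) (he : D.f i k • e = 0) : ∃ e', e = D.f i k ^ n • e' := by
  obtain ⟨r, a, b, ha, hab⟩ := DualBasis.exists_dualBasis_sec (hyper D hU k ^ (n + 1)) (S.killed n)
    (S.lf n) (hU i)
  let j := (hyper D hU k ^ (n + 1)).subschemeι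
  have hsurj : Function.Surjective (j.app (D.U i)) := j.app_surjective _ (hU i)
  choose c hc using fun l => hsurj (a l e)
  -- `f c ∈ (f^(n+1))`
  have hker : ∀ x : Γ(X, D.U i), j.app (D.U i) x = 0 → ∃ y, x = D.f i k ^ (n + 1) * y := by
    intro x hx
    have h1 : x ∈ (hyper D hU k ^ (n + 1)).ideal ⟨D.U i, hU i⟩ := by
      rw [← Scheme.IdealSheafData.ker_subschemeι_app (hyper D hU k ^ (n + 1)) ⟨D.U i, hU i⟩]
      exact hx
    rw [hyper_pow_ideal, Ideal.mem_span_singleton] at h1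
    exact h1
  have h1 : ∀ l, ∃ y, c l = D.f i k ^ n * y := by
    intro l
    have h2 : j.app (D.U i) (D.f i k * c l) = 0 := by
      have h3 : j.app (D.U i) (D.f i k * c l) = a l (D.f i k • e) := by
        rw [ha, ← hc l]
        exact map_mul (j.app (D.U i)).hom _ _
      rw [h3, he, map_zero]
    obtain ⟨y, hy⟩ := hker _ h2
    refine ⟨y, ?_⟩
    have h4 : D.f i k * (c l - D.f i k ^ n * y) = 0 := by
      rw [mul_sub, hy, pow_succ']
      ring
    exact sub_eq_zero.1 ((hreg i).1 _ h4)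
  choose y hy using h1
  refine ⟨∑ l, y l • b l, ?_⟩
  rw [hab e c hc, Finset.smul_sum]
  exact Finset.sum_congr rfl fun l _ => by rw [hy, mul_smul]

/-- The conditions of `TwMod.modSys`. -/
theorem locSys {r : ℕ} {D : CoordData X (Fin (r + 1))} {hU : ∀ i, IsAffineOpen (D.U i)}
    [∀ i, QuasiCompact (D.U i).ι] (S : Sys (hyper D hU 0))
    (hreg : ∀ i, D.f i 0 ∈ nonZeroDivisors Γ(X, D.U i)) : H151.TwMod.LocSys D S.G S.t where
  loc n V hV := by
    have : (S.G n).IsQuasicoherent := S.qc n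
    exact CohqB.QC2.loc_of_isQuasicoherent (S.G n) hV
  tors := tors S
  surj := surj S
  ker := ker S
  ftors := ftors S hreg

end Groth.Agent.Sga2lef.H103.LocSysOf
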