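import Groth.Agent.Sga2lef.H103.ConePres
import Groth.Agent.Sga2lef.H151.TwFinal
import Groth.Agent.Lefx.H80.OfMG
import Groth.Agent.Sga2lef.H78.DualBasis
import Groth.Agent.Sga2lef.H103.LocSysOf
import Groth.Agent.Sga2lef.H78.TorsApp
import Groth.Agent.Pi1C.ConeAnnR
import Groth.Agent.Fdesc.StructMod

/-!
# Algebraization of adic systems along a regular hyperplane section
-/

set_option autoImplicit false
universe u
open AlgebraicGeometry CategoryTheory
open Groth.Agent.VarietyB.ProjGlue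

namespace Groth.Agent.Sga2lef.H103.RegCore

open Groth.Agent.Pi1C LefSetup
open Groth.Agent.Sga2lef.H78 KCalc
open Groth.Agent.FormalB Groth.Agent.FormalB.KQuot Groth.Agent.FormalB.TrKQuot
open Groth.Agent.Sga2lef.H151.TwMod

section empty

variable {X : Scheme.{u}} [IsEmpty X]

theorem hom_eq_zero {M N : X.Modules} (φ : M ⟶ N) : φ = 0 := by
  apply Scheme.Modules.hom_ext
  intro U
  ext m
  refine TopCat.Sheaf.eq_of_locally_eq' ⟨_, N.isSheaf⟩ (fun V : PEmpty.{1} => (⊥ : X.Opens)) U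
    (fun V => V.elim) ?_ _ _ (fun V => V.elim)
  intro x _
  exact isEmptyElim x

theorem exists_alg_of_isEmpty {K : X.IdealSheafData} (S : Sys K) (hS : Coh.IsCoh (S.G 0)) :
    ∃ F : X.Modules, Coh.IsCoh F ∧ Alg S F := by
  refine ⟨S.G 0, hS, fun n => 0, fun n => (hom_eq_zero _).trans (hom_eq_zero _).symm, fun n => ?_⟩
  refine ⟨⟨fun g h _ => (hom_eq_zero g).trans (hom_eq_zero h).symm⟩, S.killed n,
    fun φ _ => ⟨0, (hom_eq_zero _).trans (hom_eq_zero _).symm⟩⟩

end empty

theorem isCoh {X : Scheme.{u}} {K : X.IdealSheafData} (S : Sys K) (n : ℕ) : Coh.IsCoh (S.G n) := by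
  refine ⟨S.qc n, ?_⟩
  have := S.qc n
  apply CohqB.FiniteType2.isFT_of_finite_sections
  intro x
  obtain ⟨V, hV, hxV, -⟩ := exists_isAffineOpen_mem_and_subset (x := x) (U := ⊤) trivial
  refine ⟨V, hxV, hV, ?_⟩
  obtain ⟨r, a, b, ha, hab⟩ := DualBasis.exists_dualBasis_sec (K ^ (n + 1)) (S.killed n) (S.lf n) hV
  rw [Module.finite_def, Submodule.fg_def]
  refine ⟨Set.range b, Set.finite_range b, ?_⟩
  rw [eq_top_iff]
  intro z _
  have hsurj : Function.Surjective ((K ^ (n + 1)).subschemeι.app V) :=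
    (K ^ (n + 1)).subschemeι.app_surjective _ hV
  choose c hc using fun l => hsurj (a l z)
  rw [hab z c hc]
  exact Submodule.sum_mem _ fun j _ => Submodule.smul_mem _ _ (Submodule.subset_span ⟨j, rfl⟩)

section chart

variable {X : Scheme.{u}} {r : ℕ} {D : CoordData X (Fin (r + 1))} {hU : ∀ i, IsAffineOpen (D.U i)}
  [∀ i, QuasiCompact (D.U i).ι]

theorem chartProj (S : Sys (hyper D hU 0)) (n : ℕ) : ChartProj D (n + 1) (S.G n) := by
  intro i
  obtain ⟨q, a, b, ha, hab⟩ := DualBasis.exists_dualBasis_sec (hyper D hU 0 ^ (n + 1)) (S.killed n)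
    (S.lf n) (hU i)
  let j := (hyper D hU 0 ^ (n + 1)).subschemeι
  have hsurj : Function.Surjective (j.app (D.U i)) := j.app_surjective _ (hU i)
  have hker : ∀ x : Γ(X, D.U i), j.app (D.U i) x = 0 →
      x ∈ Ideal.span {D.f i 0 ^ (n + 1)} := by
    intro x hx
    rw [← hyper_pow_ideal D hU 0 (n + 1) i,
      ← Scheme.IdealSheafData.ker_subschemeι_app (hyper D hU 0 ^ (n + 1)) ⟨D.U i, hU i⟩]
    exact hx
  choose σ hσ using hsurj
  have hσ' : ∀ (x : Γ(X, D.U i)) y, j.app (D.U i) x = y →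
      (Submodule.Quotient.mk (σ y) : Γ(X, D.U i) ⧸ Ideal.span {D.f i 0 ^ (n + 1)}) =
        Submodule.Quotient.mk x := by
    intro x y h
    rw [Submodule.Quotient.eq]
    apply hker
    rw [map_sub, hσ, h, sub_self]
  let φ : Fin q → (Γ(S.G n, D.U i) →ₗ[Γ(X, D.U i)]
      Γ(X, D.U i) ⧸ Ideal.span {D.f i 0 ^ (n + 1)}) := fun l =>
    { toFun := fun z => Submodule.Quotient.mk (σ (a l z))
      map_add' := fun z w => by
        rw [← Submodule.Quotient.mk_add]
        refine hσ' _ _ ?_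
        rw [map_add, hσ, hσ, map_add]
      map_smul' := fun c z => by
        rw [RingHom.id_apply, ← Submodule.Quotient.mk_smul]
        refine hσ' _ _ ?_
        rw [smul_eq_mul, map_mul, hσ, ha] }
  let ψ : Fin q → ((Γ(X, D.U i) ⧸ Ideal.span {D.f i 0 ^ (n + 1)}) →ₗ[Γ(X, D.U i)]
      Γ(S.G n, D.U i)) := fun l =>
    Submodule.liftQ _ (LinearMap.toSpanSingleton Γ(X, D.U i) _ (b l)) (by
      rw [Ideal.span, Submodule.span_le]
      rintro _ rfl
      exact LocSysOf.tors S n i (b l))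
  refine ⟨q, φ, ψ, fun z => ?_⟩
  exact hab z (fun l => σ (a l z)) fun l => hσ _

end chart

/-- **The regular core.** -/
theorem regCore : TorsApp.RegCore.{u} := by
  intro k _ X p _ _ r D hD hreg hdep S
  rcases isEmpty_or_nonempty X with hX | hX
  · exact exists_alg_of_isEmpty S (isCoh S 0)
  obtain ⟨c, hc⟩ := ConeAnnR.exists_pow_smul_H_eq_zero D p hD.affine hD.basic hD.surj 2 hdep
  choose O one hO hu using fun n => exists_unitData D hD.affine
    (Fdesc.StructMod.isCoh_structureModule (X := X)) (n + 1)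
  have hS := sys D hD.affine p hD.basic hD.surj (isCoh S) S.killed S.kq hreg (chartProj S) hO hu
  obtain ⟨P⟩ := ConePres.exists_pres D p hreg c hc (grRing D p) hS
  exact Lefx.H80.OfMG.exists_alg_of_pres D p hD.affine hD.basic hD.surj S P

end Groth.Agent.Sga2lef.H103.RegCore
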