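import Groth.Agent.Sga2lef.H103.GrPres
import Groth.Agent.Pi1C.GrSec
import Groth.Agent.Pi1C.Cone
import Groth.Agent.Pi1C.FormR

/-!
# Presentation of a graded system over the cone ring
-/

set_option autoImplicit false
universe u
open AlgebraicGeometry CategoryTheory
open Groth.Agent.VarietyB.ProjGlue

namespace Groth.Agent.Sga2lef.H103.ConePres

open Groth.Agent.Pi1C TwistSec GrSec GrSys

variable {X : Scheme.{u}} {r : ℕ} (D : CoordData X (Fin (r + 1))) {k : Type u} [Field k]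
  (p : X ⟶ Spec (CommRingCat.of k)) {cA : ℤ → Cone.R D p →+ Cone.R D p}

variable {D p} in
/-- Elements of the irrelevant ideal have no component in degree `0`. -/
theorem cA_zero_of_mem (hA : GrRing (Cone.x D p) cA) {t : Cone.R D p} (ht : t ∈ Cone.m D p) :
    cA 0 t = 0 := by
  rw [Cone.m] at ht
  obtain ⟨c, rfl⟩ := (Submodule.mem_span_range_iff_exists_fun (Cone.R D p)).1 ht
  rw [map_sum]
  refine Finset.sum_eq_zero fun i _ => ?_
  rw [hA.toGrMod.comp_smul_right hA.toGr (hA.deg i), hA.neg _ _ (by norm_num), zero_smul]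

theorem reg_x (hreg : ∀ i, D.f i 0 ∈ nonZeroDivisors Γ(X, D.U i)) (a : Cone.R D p)
    (ha : Cone.x D p 0 * a = 0) : a = 0 := by
  apply Cone.ext_chart D p
  intro i
  rw [map_zero]
  have h1 : Cone.chart D p i (Cone.x D p 0 * a) = 0 := by rw [ha, map_zero]
  rw [map_mul, Cone.chart_x, mul_comm (LaurentPolynomial.T 1), mul_assoc,
    mul_comm (LaurentPolynomial.T 1)] at h1
  apply ext_lc
  intro d
  have h2 := congrArg (lc _ (d + 1)) h1
  rw [lc_C_mul, lc_mul_T, add_sub_cancel_right, map_zero] at h2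
  rw [map_zero]
  exact (hreg i).1 _ h2

/-- **Presentation over the cone ring.** -/
theorem exists_pres [Nonempty X] (hreg : ∀ i, D.f i 0 ∈ nonZeroDivisors Γ(X, D.U i)) (c : ℕ)
    (hk : ∀ j ≤ 3, ∀ z : LocCoh.H (Cone.m D p) j (Cone.R D p), Cone.x D p 0 ^ c • z = 0)
    (hA : GrRing (Cone.x D p) cA)
    {C M : ℕ → Type u} [∀ n, AddCommGroup (C n)] [∀ n, Module (Cone.R D p) (C n)]
    [∀ n, AddCommGroup (M n)] [∀ n, Module (Cone.R D p) (M n)]
    {π : ∀ n, M (n + 1) →ₗ[Cone.R D p] M n} {α : ∀ n, Cone.R D p →ₗ[Cone.R D p] C n}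
    {cC : ∀ n, ℤ → C n →+ C n} {cM : ∀ n, ℤ → M n →+ M n}
    (S : Sys (Cone.x D p 0) (Cone.x D p) cA π α cC cM) :
    Nonempty (Pres (Cone.x D p 0) (Cone.x D p) cA π cM) := by
  have hm : (Cone.m D p).IsMaximal := Cone.isMaximal_m D p
  exact S.exists_pres (Cone.m D p) rfl (reg_x D p hreg) hA (hA.deg 0)
    (fun t ht => cA_zero_of_mem hA ht) c
    (FormR.kills0_of_LocCoh (m := Cone.m D p) (Cone.x D p) rfl (Cone.R D p)
      (Cone.x D p 0 ^ c) (hk 1 (by omega)))
    (FormR.kills1_of_LocCoh (m := Cone.m D p) (Cone.x D p) rfl (Cone.R D p)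
      (Cone.x D p 0 ^ c) (hk 2 (by omega)))
    (FormR.kills2_of_LocCoh (m := Cone.m D p) (Cone.x D p) rfl (Cone.R D p)
      (Cone.x D p 0 ^ c) (hk 3 (by omega)))

end Groth.Agent.Sga2lef.H103.ConePres
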