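import Groth.Agent.Sga2lef.H103.GrSys

/-!
# Lifting to the limit and vanishing in low degrees
-/

set_option autoImplicit false
universe u

namespace Groth.Agent.Sga2lef.H103.GrSys

open Groth.Agent.Pi1C Groth.Agent.FormalA.CechSub Groth.Agent.FormalA.CechLC
open FormLim FormSys FormCech FormKill FormO

section limit

variable {A : Type*} [CommRing A] {ι : Type*} {f : A} {g : ι → A} {cA : ℤ → A →+ A}
  {M : ℕ → Type*} [∀ n, AddCommGroup (M n)] [∀ n, Module A (M n)]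
  {π : ∀ n, M (n + 1) →ₗ[A] M n} {c : ∀ n, ℤ → M n →+ M n}

/-- Components of elements of the limit. -/
def comp (hπ : ∀ n a z, π n (c (n + 1) a z) = c n a (π n z)) (a : ℤ) : Lim π →+ Lim π where
  toFun x := ⟨fun n => c n a (x.1 n), fun n => by rw [hπ, Lim.compat]⟩
  map_zero' := Subtype.ext (funext fun n => map_zero (c n a))
  map_add' x y := Subtype.ext (funext fun n => map_add (c n a) (x.1 n) (y.1 n))

theorem comp_val (hπ : ∀ n a z, π n (c (n + 1) a z) = c n a (π n z)) (a : ℤ) (x : Lim π) (n : ℕ) :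
    (comp hπ a x).1 n = c n a (x.1 n) := rfl

/-- Homogeneous elements of the limit. -/
def IsHom (c : ∀ n, ℤ → M n →+ M n) (a : ℤ) (x : Lim π) : Prop := ∀ n, c n a (x.1 n) = x.1 n

theorem comp_eq (hπ : ∀ n a z, π n (c (n + 1) a z) = c n a (π n z)) {a : ℤ} {x : Lim π}
    (hx : IsHom c a x) : comp hπ a x = x := Subtype.ext (funext hx)

variable (hc : ∀ n, GrMod cA (c n))

include hc in
theorem isHom_comp (hπ : ∀ n a z, π n (c (n + 1) a z) = c n a (π n z)) (a : ℤ) (x : Lim π) :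
    IsHom c a (comp hπ a x) := fun n => (hc n).self a _

include hc in
theorem IsHom.smul {a b : ℤ} {t : A} {x : Lim π} (hx : IsHom c b x) (ht : cA a t = t) :
    IsHom c (a + b) (t • x) := fun n => (hc n).smul a b t _ ht (hx n)

theorem IsHom.add {a : ℤ} {x y : Lim π} (hx : IsHom c a x) (hy : IsHom c a y) :
    IsHom c a (x + y) := fun n => (map_add (c n a) (x.1 n) (y.1 n)).trans (by rw [hx n, hy n]; rfl)

theorem IsHom.sub {a : ℤ} {x y : Lim π} (hx : IsHom c a x) (hy : IsHom c a y) :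
    IsHom c a (x - y) := fun n => (map_sub (c n a) (x.1 n) (y.1 n)).trans (by rw [hx n, hy n]; rfl)

theorem IsHom.zero (a : ℤ) : IsHom c a (0 : Lim π) := fun n => map_zero (c n a)

theorem IsHom.sum {a : ℤ} {κ : Type*} (s : Finset κ) (x : κ → Lim π) (hx : ∀ j ∈ s, IsHom c a (x j)) :
    IsHom c a (∑ j ∈ s, x j) := by
  classical
  induction s using Finset.induction_on with
  | empty => exact IsHom.zero a
  | insert j s hj ih =>
    rw [Finset.sum_insert hj]
    exact (hx j (Finset.mem_insert_self j s)).add (ih fun k hk => hx k (Finset.mem_insert_of_mem hk))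

include hc in
theorem comp_smul (hπ : ∀ n a z, π n (c (n + 1) a z) = c n a (π n z)) {a : ℤ} {t : A}
    (ht : cA a t = t) (b : ℤ) (x : Lim π) : comp hπ b (t • x) = t • comp hπ (b - a) x :=
  Subtype.ext (funext fun n => (hc n).comp_smul ht b _)

include hc in
theorem comp_smul_right (hπ : ∀ n a z, π n (c (n + 1) a z) = c n a (π n z)) (hA : Gr cA) {e : ℤ}
    {x : Lim π} (hx : IsHom c e x) (b : ℤ) (t : A) : comp hπ b (t • x) = cA (b - e) t • x :=
  Subtype.ext (funext fun n => (hc n).comp_smul_right hA (hx n) b t)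

end limit

theorem eq_zero_of_loc {A : Type*} [CommRing A] {ι : Type*} {g : ι → A} {N : Type*} [AddCommGroup N]
    [Module A N] (hN : Closed g N) (x : N) (h : ∀ i, ∃ k : ℕ, g i ^ k • x = 0) : x = 0 := by
  refine hN.inj x (funext fun i => ?_)
  obtain ⟨k, hk⟩ := h i
  exact (Groth.Agent.FormalA.LocSub.mkLinearMap_eq_zero_iff (S := PS g i) x).2 ⟨_, ⟨k, rfl⟩, hk⟩

/-- `f^(2 n0) C ⊆ im A`. -/
theorem exists_of_kills {A : Type*} [CommRing A] {ι : Type*} {g : ι → A} {f : A} {C : Type*}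
    [AddCommGroup C] [Module A C] (α : A →ₗ[A] C) (c n0 : ℕ) (hs : LS g α)
    (hk : LK g α (f ^ (c + 1))) (ht : ∀ x : C, f ^ (c + 1) • x = 0) (hC : Closed g C)
    (hreg : ∀ a : A, f * a = 0 → a = 0) (h0 : Kills0 g (f ^ n0) A) (h1 : Kills1 g (f ^ n0) A)
    (x : C) : ∃ a : A, α a = f ^ (2 * n0) • x := by
  obtain ⟨x', hx'⟩ := hs.map0 (ε (PS g) x)
  obtain ⟨y, hy⟩ := hk.map1 (d0 (PS g) x') (by rw [map1_d0, hx', d0_ε])
  have hdy : d1 (PS g) y = 0 := reg_C2 hreg (c + 1) _ (by rw [← map_smul, ← hy, d1_d0])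
  obtain ⟨z, hz⟩ := h1 y hdy
  have hu : d0 (PS g) (f ^ n0 • x' - f ^ (c + 1) • z) = 0 := by
    rw [map_sub, map_smul, map_smul, hy, hz, smul_comm, sub_self]
  obtain ⟨a, ha⟩ := h0 _ hu
  refine ⟨a, ?_⟩
  rw [← sub_eq_zero]
  refine hC.inj _ ?_
  rw [map_sub, map_smul, ← map0_ε, ha, sub_eq_zero, map_smul, map_sub, map_smul, map_smul, hx',
    map0_smul_zero ht, sub_zero, smul_smul, two_mul, pow_add]

section sys

variable {A : Type u} [CommRing A] {ι : Type*} {f : A} {g : ι → A} {cA : ℤ → A →+ A}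
  {C M : ℕ → Type u} [∀ n, AddCommGroup (C n)] [∀ n, Module A (C n)]
  [∀ n, AddCommGroup (M n)] [∀ n, Module A (M n)]
  {π : ∀ n, M (n + 1) →ₗ[A] M n} {α : ∀ n, A →ₗ[A] C n}
  {cC : ∀ n, ℤ → C n →+ C n} {cM : ∀ n, ℤ → M n →+ M n}

/-- `M n` is locally finitely generated. -/
theorem Sys.exists_fg [Finite ι] (S : Sys f g cA π α cC cM) (n : ℕ) :
    ∃ N : Submodule A (M n), N.FG ∧ ∀ i x, ∃ k : ℕ, g i ^ k • x ∈ N := by
  choose r k Φ Ψ δ hδ hfac using S.facM n
  refine ⟨Submodule.span A (Set.range fun s : Σ i, Fin (r i) => Ψ s.1 s.2 (α n 1)),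
    Submodule.fg_span (Set.finite_range _), fun i x => ?_⟩
  obtain ⟨l, hl⟩ := FormFin.exists_common (LinearMap.range (α n)) (g i)
    (fun j => Φ i j x) fun j => by
      obtain ⟨l, c, hc⟩ := S.surjα n i (Φ i j x)
      exact ⟨l, c, hc⟩
  refine ⟨l + k i, ?_⟩
  rw [pow_add, mul_smul, hfac, Finset.smul_sum]
  refine Submodule.sum_mem _ fun j _ => ?_
  obtain ⟨c, hc⟩ := hl j
  have e1 : g i ^ l • Ψ i j (Φ i j x) = c • Ψ i j (α n 1) := by
    rw [← (Ψ i j).map_smul, ← hc, ← (Ψ i j).map_smul, ← (α n).map_smul, smul_eq_mul, mul_one]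
  rw [e1]
  exact Submodule.smul_mem _ _ (Submodule.subset_span ⟨⟨i, j⟩, rfl⟩)

/-- Lifting to the limit. -/
theorem Sys.exists_lift [Finite ι] [IsNoetherianRing A] (m : Ideal A) [hm : m.IsMaximal]
    (hg : m.radical = (Ideal.span (Set.range g)).radical) (hreg : ∀ a : A, f * a = 0 → a = 0)
    (n0 : ℕ) (hk1 : Kills1 g (f ^ n0) A) (hk2 : Kills2 g (f ^ n0) A) (S : Sys f g cA π α cC cM)
    (n : ℕ) (i : ι) (x : M n) : ∃ (k : ℕ) (b : Lim π), b.1 n = g i ^ k • x := by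
  obtain ⟨N, hN, hNl⟩ := S.exists_fg (2 * n0)
  have h𝔠 : m ≤ (⊤ ⊔ Ideal.span {f}).radical := by
    rw [top_sup_eq]
    exact le_top.trans Ideal.le_radical
  have hR := FormR.isNoetherian_range m g hg f hreg ⊤ h𝔠 n0
    (fun a _ => (kills1 g A).mul_mem_right a hk1)
    (fun a _ x hx => by
      obtain ⟨y, hy⟩ := hk2 x hx
      exact ⟨a • y, by rw [map_smul, hy, smul_smul, mul_comm]⟩) (C (2 * n0))
    (α (2 * n0)) (S.surjα _) (S.kerα _) (S.torsC _) (M (2 * n0))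
    (fun i => by
      obtain ⟨r, k, Φ, Ψ, -, -, h⟩ := S.facM (2 * n0) i
      exact ⟨r, k, Φ, Ψ, h⟩) N hN hNl
  obtain ⟨k, b, hb⟩ := exists_lift_loc S.sysM (2 * n0) hR n i x
  exact ⟨k, b, hb⟩

/-- `f^(2 n0)` kills the elements of `M n` of very negative degree. -/
theorem Sys.exists_bound [Finite ι] (hreg : ∀ a : A, f * a = 0 → a = 0) (hA : GrRing g cA)
    (hf : cA 1 f = f)
    (n0 : ℕ) (hk0 : Kills0 g (f ^ n0) A) (hk1 : Kills1 g (f ^ n0) A) (S : Sys f g cA π α cC cM)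
    (n : ℕ) : ∃ a0 : ℤ, ∀ a < a0, ∀ x : M n, cM n a x = x → f ^ (2 * n0) • x = 0 := by
  classical
  have hfp : ∀ k : ℕ, cA k (f ^ k) = f ^ k := by
    intro k
    induction k with
    | zero => rw [pow_zero]; exact hA.one
    | succ k ih => rw [pow_succ, Nat.cast_succ]; exact hA.mul ih hf
  have hC : ∀ a : ℤ, a < -(2 * n0 : ℕ) → ∀ x : C n, cC n a x = x → f ^ (2 * n0) • x = 0 := by
    intro a ha x hx
    obtain ⟨t, ht⟩ := exists_of_kills (α n) n n0 (S.surjα n) (S.kerα n) (S.torsC n) (S.closedC n)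
      hreg hk0 hk1 x
    have h1 := (S.grC n).smul _ a _ x (hfp (2 * n0)) hx
    rw [← ht, ← S.αc, hA.neg _ _ (by omega), map_zero] at h1
    rw [← ht, ← h1]
  choose r k Φ Ψ δ hδ hfac using S.facM n
  have hfin := Fintype.ofFinite ι
  refine ⟨-(2 * n0 : ℕ) - ∑ s : (Σ i, Fin (r i)), |δ s.1 s.2|, fun a ha x hx => ?_⟩
  refine eq_zero_of_loc (S.sysM.closed n) _ fun i => ⟨k i, ?_⟩
  rw [smul_comm, hfac, Finset.smul_sum]
  refine Finset.sum_eq_zero fun j _ => ?_
  rw [← map_smul, hC (a + δ i j) ?_ _ (hδ i j a x hx), map_zero]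
  have h1 : |δ i j| ≤ ∑ s : (Σ i, Fin (r i)), |δ s.1 s.2| :=
    Finset.single_le_sum (f := fun s : (Σ i, Fin (r i)) => |δ s.1 s.2|)
      (fun _ _ => abs_nonneg _) (Finset.mem_univ (⟨i, j⟩ : Σ i, Fin (r i)))
  have h2 := le_abs_self (δ i j)
  omega

/-- The limit vanishes in very negative degrees. -/
theorem Sys.exists_zero [Finite ι] (hreg : ∀ a : A, f * a = 0 → a = 0) (hA : GrRing g cA)
    (hf : cA 1 f = f)
    (n0 : ℕ) (hk0 : Kills0 g (f ^ n0) A) (hk1 : Kills1 g (f ^ n0) A) (S : Sys f g cA π α cC cM) :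
    ∃ a0 : ℤ, ∀ a < a0, ∀ x : Lim π, IsHom cM a x → x = 0 := by
  obtain ⟨a0, h0⟩ := S.exists_bound hreg hA hf n0 hk0 hk1 (2 * n0)
  have step : ∀ a < a0, ∀ x : Lim π, IsHom cM a x → ∃ y : Lim π, IsHom cM (a - 1) y ∧ x = f • y := by
    intro a ha x hx
    obtain ⟨w, hw⟩ := exists_of_proj_eq_zero S.sysM (2 * n0) (f ^ (2 * n0) • x)
      (h0 a ha _ (hx (2 * n0)))
    have h1 : f ^ (2 * n0) • (x - f • w) = 0 := by
      rw [smul_sub, hw, smul_smul, ← pow_succ, sub_self]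
    have h2 : x = f • w := by
      have := pow_reg (X := Lim π) (f := f) (reg_lim S.sysM) (2 * n0) _ h1
      rwa [sub_eq_zero] at this
    refine ⟨comp S.πcM (a - 1) w, isHom_comp S.grM S.πcM _ _, ?_⟩
    rw [← comp_smul S.grM S.πcM hf, ← h2, comp_eq S.πcM hx]
  refine ⟨a0, fun a ha x hx => ?_⟩
  have key : ∀ k : ℕ, ∃ y : Lim π, IsHom cM (a - k) y ∧ x = f ^ k • y := by
    intro k
    induction k with
    | zero => exact ⟨x, by simpa using hx, by rw [pow_zero, one_smul]⟩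
    | succ k ih =>
      obtain ⟨y, hy, hxy⟩ := ih
      obtain ⟨z, hz, hyz⟩ := step (a - k) (by omega) y hy
      refine ⟨z, ?_, by rw [hxy, hyz, smul_smul, pow_succ]⟩
      have : a - (k + 1 : ℕ) = a - k - 1 := by push_cast; ring
      rw [this]
      exact hz
  refine Subtype.ext (funext fun n => ?_)
  obtain ⟨y, -, hy⟩ := key (n + 1)
  rw [hy]
  exact S.sysM.tors n _

end sys

end Groth.Agent.Sga2lef.H103.GrSys
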