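import Groth.Agent.Sga2lef.H103.GrLift

/-!
# The part of degree `≥ a0` of a closed, locally finitely generated graded module is Noetherian
-/

set_option autoImplicit false
universe u

namespace Groth.Agent.Sga2lef.H103.GrSys

open Groth.Agent.Pi1C Groth.Agent.FormalA.CechSub Groth.Agent.FormalA.CechLC
open FormLim FormSys FormCech FormKill FormO

section ge

variable {A : Type*} [CommRing A] {ι : Type*} {g : ι → A} {cA : ℤ → A →+ A} (hA : GrRing g cA)
  {N : Type*} [AddCommGroup N] [Module A N] {c : ℤ → N →+ N} (hc : GrMod cA c)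

include hA hc in
theorem comp_smul_eq_zero {z : N} {a0 : ℤ} (hz : ∀ a < a0, c a z = 0) (t : A) {a : ℤ} (ha : a < a0) :
    c a (t • z) = 0 := by
  obtain ⟨s, hs1, hs⟩ := hc.exists_sum z
  rw [← hs, Finset.smul_sum, map_sum]
  refine Finset.sum_eq_zero fun b _ => ?_
  by_cases hb : b < a0
  · rw [hz b hb, smul_zero, map_zero]
  · rw [hc.comp_smul_right hA.toGr (hc.self b z), hA.neg _ _ (by omega), zero_smul]

/-- The elements whose components of degree `< a0` vanish. -/
def ge (hA : GrRing g cA) (hc : GrMod cA c) (a0 : ℤ) : Submodule A N where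
  carrier := {z | ∀ a < a0, c a z = 0}
  add_mem' {x y} hx hy a ha := by rw [map_add, hx a ha, hy a ha, add_zero]
  zero_mem' a _ := map_zero _
  smul_mem' t z hz a ha := comp_smul_eq_zero hA hc hz t ha

theorem mem_ge {a0 : ℤ} {z : N} : z ∈ ge hA hc a0 ↔ ∀ a < a0, c a z = 0 := Iff.rfl

theorem ge_anti {a b : ℤ} (hab : a ≤ b) : ge hA hc b ≤ ge hA hc a :=
  fun _ hz e he => hz e (he.trans_le hab)

theorem mem_ge_of_hom {a a0 : ℤ} (h : a0 ≤ a) {z : N} (hz : c a z = z) : z ∈ ge hA hc a0 :=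
  fun b hb => hc.of_ne hz (by omega)

theorem smul_mem_ge {m : Ideal A} (hm0 : ∀ t ∈ m, cA 0 t = 0) {a0 : ℤ} {z : N}
    (hz : z ∈ ge hA hc a0) {t : A} (ht : t ∈ m) : t • z ∈ ge hA hc (a0 + 1) := by
  intro a ha
  obtain ⟨s, hs1, hs⟩ := hc.exists_sum z
  rw [← hs, Finset.smul_sum, map_sum]
  refine Finset.sum_eq_zero fun b _ => ?_
  by_cases hb : b < a0
  · rw [hz b hb, smul_zero, map_zero]
  · rw [hc.comp_smul_right hA.toGr (hc.self b z)]
    rcases lt_or_eq_of_le (show a - b ≤ 0 by omega) with h | h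
    · rw [hA.neg _ _ h, zero_smul]
    · rw [h, hm0 t ht, zero_smul]

theorem pow_smul_mem_ge {m : Ideal A} (hm0 : ∀ t ∈ m, cA 0 t = 0) {a0 : ℤ} (k : ℕ) :
    ∀ {z : N}, z ∈ ge hA hc a0 → ∀ {t : A}, t ∈ m ^ k → t • z ∈ ge hA hc (a0 + k) := by
  induction k with
  | zero =>
    intro z hz t _
    rw [Nat.cast_zero, add_zero]
    exact Submodule.smul_mem _ _ hz
  | succ k ih =>
    intro z hz t ht
    rw [pow_succ] at ht
    refine Submodule.mul_induction_on (C := fun t => t • z ∈ ge hA hc (a0 + (k + 1 : ℕ))) ht ?_ ?_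
    · intro x hx y hy
      rw [mul_comm, mul_smul]
      have := smul_mem_ge hA hc hm0 (ih hz hx) hy
      rwa [add_assoc] at this
    · intro x y hx hy
      rw [add_smul]
      exact Submodule.add_mem _ hx hy

end ge

variable {A : Type u} [CommRing A] {ι : Type*} {g : ι → A} {cA : ℤ → A →+ A} (hA : GrRing g cA)
  {N : Type u} [AddCommGroup N] [Module A N] {c : ℤ → N →+ N} (hc : GrMod cA c)

include hc in
/-- The span of homogeneous elements is homogeneous. -/
theorem comp_mem_span (hA0 : Gr cA) (T : Set N) (hT : ∀ x ∈ T, ∃ e, c e x = x) (z : N)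
    (hz : z ∈ Submodule.span A T) : ∀ a, c a z ∈ Submodule.span A T := by
  induction hz using Submodule.span_induction with
  | mem x hx =>
    intro a
    obtain ⟨e, he⟩ := hT x hx
    by_cases hae : a = e
    · subst hae
      rw [he]
      exact Submodule.subset_span hx
    · rw [hc.of_ne he hae]
      exact Submodule.zero_mem _
  | zero => intro a; rw [map_zero]; exact Submodule.zero_mem _
  | add x y _ _ hx hy => intro a; rw [map_add]; exact Submodule.add_mem _ (hx a) (hy a)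
  | smul r x _ hx =>
    intro a
    obtain ⟨s, hs1, hs⟩ := hc.exists_sum x
    have h1 : c a (r • x) = ∑ b ∈ s, cA (a - b) r • c b x := by
      conv_lhs => rw [← hs, Finset.smul_sum, map_sum]
      exact Finset.sum_congr rfl fun b _ => hc.comp_smul_right hA0 (hc.self b x) a r
    rw [h1]
    exact Submodule.sum_mem _ fun b _ => Submodule.smul_mem _ _ (hx b)

include hc in
/-- Enlarge a finitely generated submodule to a homogeneous one. -/
theorem exists_homogeneous (hA0 : Gr cA) (P : Submodule A N) (hP : P.FG) :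
    ∃ Q : Submodule A N, Q.FG ∧ P ≤ Q ∧ ∀ a, ∀ z ∈ Q, c a z ∈ Q := by
  classical
  obtain ⟨s, hs⟩ := hP
  choose t ht1 ht using fun z : N => hc.exists_sum z
  let T : Finset N := s.biUnion fun z => (t z).image fun a => c a z
  have hT : ∀ x ∈ (T : Set N), ∃ e, c e x = x := by
    intro x hx
    obtain ⟨z, hz, hx⟩ := Finset.mem_biUnion.1 (Finset.mem_coe.1 hx)
    obtain ⟨b, hb, rfl⟩ := Finset.mem_image.1 hx
    exact ⟨b, hc.self b z⟩
  refine ⟨Submodule.span A (T : Set N), ⟨T, rfl⟩, ?_, fun a z hz => comp_mem_span hc hA0 _ hT z hz a⟩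
  rw [← hs, Submodule.span_le]
  intro z hz
  have h1 := ht z
  rw [← h1]
  exact Submodule.sum_mem _ fun a ha => Submodule.subset_span (Finset.mem_coe.2
    (Finset.mem_biUnion.2 ⟨z, hz, Finset.mem_image.2 ⟨a, ha, rfl⟩⟩))

/-- The quotient of a closed module by a locally full finitely generated submodule is Artinian. -/
theorem isArtinian_quot [Finite ι] [IsNoetherianRing A] (m : Ideal A) [hm : m.IsMaximal]
    (hg : m.radical = (Ideal.span (Set.range g)).radical)
    (hcl : Closed g N) (Q : Submodule A N) (hQ : Q.FG) (hQl : ∀ i x, ∃ k : ℕ, g i ^ k • x ∈ Q) :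
    IsArtinian A (N ⧸ Q) := by
  have hfin : Module.Finite A Q := Module.Finite.iff_fg.2 hQ
  have hH := Groth.Agent.Pi1C604.ArtinLC.isArtinian_H0' (m := m) g hg Q
  have hLS : LS g Q.subtype := fun i x => by
    obtain ⟨k, hk⟩ := hQl i x
    exact ⟨k, ⟨_, hk⟩, rfl⟩
  have hinj : Function.Injective Q.subtype := Q.injective_subtype
  let e : C0 (PS g) Q ≃ₗ[A] C0 (PS g) N :=
    LinearEquiv.ofBijective (map0 (PS g) Q.subtype) ⟨map0_injective (PS g) Q.subtype hinj, hLS.map0⟩
  have he : ∀ x, map0 (PS g) Q.subtype (e.symm x) = x := fun x => e.apply_symm_apply x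
  let φ : N →ₗ[A] C0 (PS g) Q := e.symm.toLinearMap ∘ₗ ε (PS g)
  have hφ : ∀ x, φ x ∈ LinearMap.ker (d0 (N := Q) (PS g)) := by
    intro x
    rw [LinearMap.mem_ker]
    apply map1_injective (PS g) Q.subtype hinj
    rw [map1_d0, map_zero]
    change d0 (PS g) (map0 (PS g) Q.subtype (e.symm (ε (PS g) x))) = 0
    rw [he, d0_ε]
  let F : N →ₗ[A] H0' (PS g) Q := Submodule.mkQ _ ∘ₗ LinearMap.codRestrict _ φ hφ
  have hF : ∀ x, F x = 0 → x ∈ Q := by
    intro x hx
    obtain ⟨y, hy⟩ := (Submodule.Quotient.mk_eq_zero _).1 hx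
    have h1 : ε (PS g) y = φ x := hy
    have h2 : ε (PS g) (y : N) = ε (PS g) x := by
      rw [← he (ε (PS g) x)]
      change _ = map0 (PS g) Q.subtype (φ x)
      rw [← h1, map0_ε]
      rfl
    have h3 : x = y := by
      rw [← sub_eq_zero]
      refine hcl.inj _ ?_
      rw [map_sub, h2, sub_self]
    rw [h3]
    exact y.2
  have hF' : Q ≤ LinearMap.ker F := by
    intro x hx
    rw [LinearMap.mem_ker]
    refine (Submodule.Quotient.mk_eq_zero _).2 ⟨⟨x, hx⟩, ?_⟩
    change ε (PS g) (⟨x, hx⟩ : Q) = φ x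
    apply map0_injective (PS g) Q.subtype hinj
    rw [map0_ε]
    exact (he _).symm
  refine isArtinian_of_injective (Q.liftQ F hF') ?_
  rw [← LinearMap.ker_eq_bot, Submodule.ker_liftQ_eq_bot]
  intro x hx
  exact hF x hx

include hc in
/-- The part of degree `≥ a0` is Noetherian. -/
theorem isNoetherian_ge [Finite ι] [IsNoetherianRing A] (m : Ideal A) [hm : m.IsMaximal]
    (hg : m.radical = (Ideal.span (Set.range g)).radical) (hm0 : ∀ t ∈ m, cA 0 t = 0)
    (hcl : Closed g N) (P : Submodule A N) (hP : P.FG) (hPl : ∀ i x, ∃ k : ℕ, g i ^ k • x ∈ P)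
    (a0 : ℤ) : IsNoetherian A (ge hA hc a0) := by
  obtain ⟨Q, hQ, hPQ, hQc⟩ := exists_homogeneous hc hA.toGr P hP
  have hQl : ∀ i x, ∃ k : ℕ, g i ^ k • x ∈ Q := fun i x => by
    obtain ⟨k, hk⟩ := hPl i x
    exact ⟨k, hPQ hk⟩
  have hart : IsArtinian A (N ⧸ Q) := isArtinian_quot m hg hcl Q hQ hQl
  have hfin : Module.Finite A Q := Module.Finite.iff_fg.2 hQ
  -- the chain
  obtain ⟨d0, hd0⟩ := IsArtinian.monotone_stabilizes
    (⟨fun d => OrderDual.toDual ((ge hA hc (d : ℤ)).map Q.mkQ), fun d d' hdd' =>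
      Submodule.map_mono (ge_anti hA hc (by exact_mod_cast hdd'))⟩ : ℕ →o (Submodule A (N ⧸ Q))ᵒᵈ)
  have hle : ge hA hc (d0 : ℤ) ≤ Q := by
    intro x hx
    obtain ⟨s, hs1, hs⟩ := hc.exists_sum x
    obtain ⟨d, hd⟩ : ∃ d : ℕ, d0 ≤ d ∧ ∀ a ∈ s, a < d := by
      refine ⟨d0 + ∑ a ∈ s, a.natAbs + 1, by omega, fun a ha => ?_⟩
      have := Finset.single_le_sum (f := fun a : ℤ => a.natAbs) (fun _ _ => Nat.zero_le _) ha
      omega
    have h1 : Q.mkQ x ∈ (ge hA hc (d : ℤ)).map Q.mkQ := by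
      have h2 : (ge hA hc (d0 : ℤ)).map Q.mkQ = (ge hA hc (d : ℤ)).map Q.mkQ := hd0 d hd.1
      rw [← h2]
      exact ⟨x, hx, rfl⟩
    obtain ⟨y, hy, hyx⟩ := h1
    have h3 : y - x ∈ Q := (Submodule.Quotient.eq Q).1 hyx
    rw [← hs]
    refine Submodule.sum_mem _ fun a ha => ?_
    have h4 := hQc a _ h3
    rw [map_sub, hy a (hd.2 a ha), zero_sub] at h4
    exact neg_mem_iff.1 h4
  let F : ge hA hc a0 →ₗ[A] N ⧸ Q := Q.mkQ ∘ₗ (ge hA hc a0).subtype
  have h1 : IsNoetherian A (LinearMap.range F) := by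
    refine isNoetherian_of_pow m (d0 - a0).toNat inferInstance ?_
    rintro t ht ⟨_, ⟨x, rfl⟩⟩
    apply Subtype.ext
    change t • Q.mkQ x.1 = 0
    rw [← map_smul]
    refine (Submodule.Quotient.mk_eq_zero _).2 (hle ?_)
    exact ge_anti hA hc (by omega) (pow_smul_mem_ge hA hc hm0 _ x.2 ht)
  have h2 : IsNoetherian A (LinearMap.ker F) := by
    refine isNoetherian_of_injective
      (LinearMap.codRestrict Q ((ge hA hc a0).subtype ∘ₗ (LinearMap.ker F).subtype) fun x => ?_) ?_
    · exact (Submodule.Quotient.mk_eq_zero _).1 x.2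
    · intro x y hxy
      have h3 := congrArg Subtype.val hxy
      simp only [LinearMap.codRestrict_apply, LinearMap.comp_apply, Submodule.subtype_apply] at h3
      exact Subtype.ext (Subtype.ext h3)
  exact isNoetherian_of_range_eq_ker (LinearMap.ker F).subtype F.rangeRestrict (by
    rw [Submodule.range_subtype, LinearMap.ker_rangeRestrict])

end Groth.Agent.Sga2lef.H103.GrSys
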